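import Cfsg.Agent.Lib.PrimCS.Struct
import Cfsg.Agent.Lib.Char.DegDvd
import Cfsg.Agent.Lib.FG85.IP2
import Cfsg.Agent.Lib.Char.RelGraph

/-!
# Degrees of homogeneous characters
-/

set_option autoImplicit false

namespace Cfsg.Agent.Lib.PrimCS.Deg

open Cfsg
open Cfsg.Agent.Lib.Char.Basic Cfsg.Agent.Lib.Char.Ortho Cfsg.Agent.Lib.Char.Complete
open Cfsg.Agent.Lib.Char.Conj
open Cfsg.Agent.Lib.Char.Degree Cfsg.Agent.Lib.Char.Linear
open Cfsg.Agent.Lib.PrimCS.Struct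

universe u

/-- Every normal subgroup restricts `ω` to a multiple of one irreducible character. -/
def Homog {X : Type u} [Group X] (ω : X → ℂ) : Prop :=
  ∀ U : Subgroup X, U.Normal → ∃ (m : ℕ) (θ : U → ℂ), IsIrrCharacter U θ ∧ ∀ n : U, ω n = m * θ n

section Generic

variable {X : Type u} [Group X] [Finite X]

theorem exists_div_mult {a ψ : X → ℂ} (ha : IsCharacter X a) (hψ : IsIrrCharacter X ψ) {m m₃ : ℕ}
    (hm₃ : m₃ ≠ 0) (h : ∀ x, (m₃ : ℂ) * a x = m * ψ x) :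
    ∃ m' : ℕ, (∀ x, a x = m' * ψ x) ∧ m = m₃ * m' := by
  classical
  letI := Fintype.ofFinite X
  obtain ⟨m', hm'⟩ := exists_nat_classInner ha (isCharacter_of_isIrrCharacter hψ)
  have h1 : (m₃ : ℂ) • a = (m : ℂ) • ψ := funext h
  have h2 := congrArg (fun f => classInner f ψ) h1
  simp only [classInner_smul_left, hm', classInner_self_of_isIrr hψ, mul_one] at h2
  have h3 : m = m₃ * m' := by
    have : ((m₃ * m' : ℕ) : ℂ) = m := by
      push_cast
      exact h2
    exact_mod_cast this.symm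
  refine ⟨m', fun x => ?_, h3⟩
  have h4 := h x
  rw [h3] at h4
  push_cast at h4
  have hm₃' : (m₃ : ℂ) ≠ 0 := Nat.cast_ne_zero.mpr hm₃
  apply mul_left_cancel₀ hm₃'
  rw [h4]
  ring

theorem sum_norm_sq_of_irr {ψ : X → ℂ} (hψ : IsIrrCharacter X ψ) [Fintype X] :
    ∑ g, ‖ψ g‖ ^ 2 = (Nat.card X : ℝ) := by
  have h1 := classInner_self_of_isIrr hψ
  rw [classInner_self_eq] at h1
  have h2 : ((Nat.card X : ℝ)⁻¹ * ∑ g, ‖ψ g‖ ^ 2 : ℝ) = 1 := by
    exact_mod_cast h1
  have h3 : (Nat.card X : ℝ) ≠ 0 := Nat.cast_ne_zero.mpr Nat.card_pos.ne'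
  field_simp at h2
  exact h2

/-- The averaging bound. -/
theorem mult_sq_le_index {K : Subgroup X} {τ : X → ℂ} {κ : K → ℂ} (hτ : IsIrrCharacter X τ)
    (hκ : IsIrrCharacter K κ) {m : ℕ} (h : ∀ k : K, τ k = m * κ k) : m ^ 2 ≤ K.index := by
  classical
  letI := Fintype.ofFinite X
  letI := Fintype.ofFinite K
  have h1 := sum_norm_sq_of_irr hτ
  have h2 := sum_norm_sq_of_irr hκ
  have h3 : ∑ k : K, ‖τ k‖ ^ 2 = (m : ℝ) ^ 2 * Nat.card K := by
    rw [← h2, Finset.mul_sum]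
    refine Finset.sum_congr rfl fun k _ => ?_
    rw [h k, norm_mul, mul_pow, Complex.norm_natCast]
  have h4 : ∑ k : K, ‖τ k‖ ^ 2 ≤ ∑ x : X, ‖τ x‖ ^ 2 := by
    let e : K ↪ X := ⟨Subtype.val, Subtype.val_injective⟩
    have h5 : ∑ k : K, ‖τ k‖ ^ 2 = ∑ x ∈ Finset.univ.map e, ‖τ x‖ ^ 2 := by
      rw [Finset.sum_map]
      rfl
    rw [h5]
    exact Finset.sum_le_sum_of_subset_of_nonneg (Finset.subset_univ _) (fun _ _ _ => by positivity)
  rw [h3, h1] at h4
  have h6 := Subgroup.card_mul_index K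
  have h7 : (m : ℝ) ^ 2 * Nat.card K ≤ Nat.card K * K.index := by
    rw [← Nat.cast_mul, h6]
    exact h4
  have h8 : m ^ 2 * Nat.card K ≤ Nat.card K * K.index := by exact_mod_cast h7
  rw [mul_comm (m ^ 2)] at h8
  exact Nat.le_of_mul_le_mul_left h8 Nat.card_pos

/-- The multiplicity divides the index. -/
theorem mult_dvd_index {K : Subgroup X} (hK : K.Normal) {τ : X → ℂ} {κ : K → ℂ}
    (hτ : IsIrrCharacter X τ) (hκ : IsIrrCharacter K κ) {m : ℕ} (h : ∀ k : K, τ k = m * κ k) :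
    m ∣ K.index := by
  classical
  letI := Fintype.ofFinite X
  letI := Fintype.ofFinite K
  have h0 : τ 1 = m * κ 1 := by
    have := h 1
    simpa using this
  have hτ1 : τ 1 ≠ 0 := irr_one_ne_zero hτ
  have hm : (m : ℂ) ≠ 0 := by
    intro h'
    rw [h', zero_mul] at h0
    exact hτ1 h0
  have hκ1 : κ 1 ≠ 0 := irr_one_ne_zero hκ
  have hcon : classInner (fun n : K => τ n) κ ≠ 0 := by
    have h1 : (fun n : K => τ n) = (m : ℂ) • κ := funext h
    rw [h1, classInner_smul_left, classInner_self_of_isIrr hκ, mul_one]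
    exact hm
  obtain ⟨e, t, h2, h3⟩ := Cfsg.Agent.Lib.Char.DegDvd.dvd_index_of_constituent hK hκ hτ hcon
  have h4 : (m : ℂ) = (e * t : ℕ) := by
    apply mul_right_cancel₀ hκ1
    rw [← h0, h2]
  have h5 : m = e * t := by exact_mod_cast h4
  rw [h5]
  exact h3

/-- In a normal subgroup of prime index the restriction of an irreducible character is
multiplicity free. -/
theorem mult_eq_one_of_prime {K : Subgroup X} (hK : K.Normal) {τ : X → ℂ} {κ : K → ℂ}
    (hτ : IsIrrCharacter X τ) (hκ : IsIrrCharacter K κ) {m : ℕ} (h : ∀ k : K, τ k = m * κ k)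
    {p : ℕ} (hp : p.Prime) (hidx : K.index = p) : m = 1 := by
  have h1 := mult_dvd_index hK hτ hκ h
  have h2 := mult_sq_le_index hτ hκ h
  rw [hidx] at h1 h2
  rcases (Nat.dvd_prime hp).mp h1 with h3 | h3
  · exact h3
  · exfalso
    rw [h3] at h2
    have h4 := hp.two_le
    nlinarith

/-- Descending along a chain of normal subgroups of prime index. -/
theorem irr_res_aux {p : ℕ} [hp : Fact p.Prime] {ω : X → ℂ} (hH : Homog ω) {Y : Subgroup X}
    (hY : Y.Normal) (hidx : ∃ k, Y.index = p ^ k) :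
    ∀ (n : ℕ) (U : Subgroup X), U.Normal → Y ≤ U → Nat.card U = n →
      IsIrrCharacter U (fun u : U => ω u) → IsIrrCharacter Y (fun y : Y => ω y) := by
  intro n
  induction n using Nat.strong_induction_on with
  | _ n ih =>
  intro U hU hYU hn hirr
  by_cases hEq : Y = U
  · subst hEq
    exact hirr
  haveI := hY
  haveI := hU
  have hYlt : Y < U := lt_of_le_of_ne hYU hEq
  have hG : IsPGroup p (X ⧸ Y) := by
    obtain ⟨k, hk⟩ := hidx
    exact IsPGroup.of_card (n := k) hk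
  let π := QuotientGroup.mk' Y
  let Kb : Subgroup (X ⧸ Y) := U.map π
  haveI : Kb.Normal := hU.map _ (QuotientGroup.mk'_surjective Y)
  have hKb : ⊥ < Kb := by
    rw [bot_lt_iff_ne_bot]
    intro h
    obtain ⟨x, hxU, hxY⟩ := SetLike.exists_of_lt hYlt
    apply hxY
    have h1 : π x ∈ Kb := Subgroup.mem_map_of_mem _ hxU
    rw [h, Subgroup.mem_bot] at h1
    exact (QuotientGroup.eq_one_iff x).mp h1
  obtain ⟨L, hL, -, hLK, hi⟩ := Cfsg.Agent.Lib.PGroups.Basic.exists_normal_relIndex_below hG hKb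
  let U' : Subgroup X := L.comap π
  have hU'n : U'.Normal := hL.comap π
  have hYU' : Y ≤ U' := by
    intro y hy
    have h1 : π y = 1 := (QuotientGroup.eq_one_iff y).mpr hy
    show π y ∈ L
    rw [h1]
    exact L.one_mem
  have hU'U : U' ≤ U := by
    intro x hx
    have h1 : π x ∈ Kb := hLK hx
    obtain ⟨u, hu, he⟩ := h1
    have h2 : u⁻¹ * x ∈ Y := QuotientGroup.eq.mp he
    have h3 := U.mul_mem hu (hYU h2)
    simpa using h3
  have hrel : U'.relIndex U = p := by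
    rw [Subgroup.relIndex_comap]
    exact hi
  obtain ⟨m, κ, hκ, hm⟩ := hH U' hU'n
  let K' : Subgroup U := U'.subgroupOf U
  have hK' : K'.Normal := hU'n.subgroupOf U
  let e : K' ≃* U' := Subgroup.subgroupOfEquivOfLe hU'U
  have hκ' := isIrrCharacter_comp_mulEquiv e hκ
  have h1 : m = 1 := mult_eq_one_of_prime hK' hirr hκ' (fun k => hm (e k)) hp.out hrel
  have hfun : (fun u : U' => ω u) = κ := by
    funext u
    rw [hm u, h1]
    simp
  have hirr' : IsIrrCharacter U' (fun u : U' => ω u) := hfun ▸ hκ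
  have hne : U' ≠ U := by
    intro h
    rw [h, Subgroup.relIndex_self] at hrel
    exact hp.out.one_lt.ne hrel
  have hlt : Nat.card U' < n := by
    rw [← hn]
    exact Cfsg.Agent.Lib.PGroups.Basic.card_lt_of_lt (lt_of_le_of_ne hU'U hne)
  exact ih _ hlt U' hU'n hYU' rfl hirr'

/-- A homogeneous irreducible character stays irreducible on a normal subgroup of `p`-power
index. -/
theorem irr_res_of_homog {p : ℕ} [Fact p.Prime] {ω : X → ℂ} (hω : IsIrrCharacter X ω)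
    (hH : Homog ω) {Y : Subgroup X} (hY : Y.Normal) (hidx : ∃ k, Y.index = p ^ k) :
    IsIrrCharacter Y (fun y : Y => ω y) := by
  refine irr_res_aux hH hY hidx _ ⊤ inferInstance le_top rfl ?_
  exact isIrrCharacter_comp_mulEquiv (Subgroup.topEquiv : (⊤ : Subgroup X) ≃* X) hω

end Generic

section Tower

variable {G : Type u} [Group G] [Finite G]

/-- Factoring the degree along `H ≤ N`. -/
theorem tower {χ : G → ℂ} (hχ : IsIrrCharacter G χ) {N H : Subgroup G} (hN : N.Normal)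
    (hH : H.Normal) (hHN : H ≤ N) {m₁ m₃ : ℕ} {τ : N → ℂ} {ω : H → ℂ} (hτ : IsIrrCharacter N τ)
    (hω : IsIrrCharacter H ω) (h1 : ∀ n : N, χ n = m₁ * τ n) (h3 : ∀ h : H, χ h = m₃ * ω h) :
    ∃ m₂ : ℕ, m₁ ∣ N.index ∧ m₂ ∣ H.relIndex N ∧ m₂ ^ 2 ≤ H.relIndex N ∧
      charDegree χ = m₁ * m₂ * charDegree ω := by
  have hχ1 : χ 1 ≠ 0 := irr_one_ne_zero hχ
  have hm₁ : m₁ ≠ 0 := by
    rintro rfl
    have := h1 1
    simp only [Nat.cast_zero, zero_mul] at this
    exact hχ1 this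
  let H' : Subgroup N := H.subgroupOf N
  have hH' : H'.Normal := hH.subgroupOf N
  let e : H' ≃* H := Subgroup.subgroupOfEquivOfLe hHN
  have hψ : IsIrrCharacter H' (ω ∘ e) := isIrrCharacter_comp_mulEquiv e hω
  have hres : IsCharacter H' (fun x : H' => τ x) :=
    isCharacter_restrict H' (isCharacter_of_isIrrCharacter hτ)
  obtain ⟨m₂, hm₂, hm₃⟩ := exists_div_mult hres hψ hm₁ (fun x => by
    rw [← h1 x]
    exact h3 (e x))
  refine ⟨m₂, mult_dvd_index hN hχ hτ h1, mult_dvd_index hH' hτ hψ hm₂,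
    mult_sq_le_index hτ hψ hm₂, ?_⟩
  have h4 := h3 1
  have h5 : χ 1 = ((m₁ * m₂ * charDegree ω : ℕ) : ℂ) := by
    push_cast
    rw [charDegree_natCast (isCharacter_of_isIrrCharacter hω)]
    have h6 : χ ((1 : H) : G) = χ 1 := by simp
    rw [← h6, h4, hm₃]
    push_cast
    rfl
  exact charDegree_eq_of_eq_natCast h5

/-- Homogeneity descends to a normal subgroup all of whose normal subgroups are normal in `G`. -/
theorem homog_of_restrict {χ : G → ℂ} (hH : Homog χ) {H : Subgroup G}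
    (hmap : ∀ U : Subgroup H, U.Normal → (U.map H.subtype).Normal) {m₃ : ℕ} {ω : H → ℂ}
    (hω : IsIrrCharacter H ω) (hm₃ : m₃ ≠ 0) (h3 : ∀ h : H, χ h = m₃ * ω h) : Homog ω := by
  intro U hU
  obtain ⟨m, θ, hθ, hm⟩ := hH _ (hmap U hU)
  let e : U ≃* U.map H.subtype := U.equivMapOfInjective H.subtype H.subtype_injective
  have hψ : IsIrrCharacter U (θ ∘ e) := isIrrCharacter_comp_mulEquiv e hθ
  have hres : IsCharacter U (fun x : U => ω x) :=
    isCharacter_restrict U (isCharacter_of_isIrrCharacter hω)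
  obtain ⟨m', hm', -⟩ := exists_div_mult hres hψ hm₃ (fun x => by
    rw [← h3 x]
    exact hm (e x))
  exact ⟨m', θ ∘ e, hψ, hm'⟩

end Tower

section Main

open Subgroup

variable {G : Type u} [Group G] [Finite G]

/-- The degree factorisation. -/
theorem deg_factor {p q : ℕ} {P Q Np Nq : Subgroup G} (S : Setup p q P Q Np Nq) (C : Core G)
    {χ : G → ℂ} (hχ : IsIrrCharacter G χ) (hH : Homog χ) :
    ∃ A B : ℕ, charDegree χ = A * B ∧ (∃ s, A = p ^ s) ∧ (∃ t, B = q ^ t) ∧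
      A ^ 2 ≤ (center G).relIndex P := by
  haveI : Fact p.Prime := ⟨S.hp⟩
  haveI : Fact q.Prime := ⟨S.hq⟩
  set H := cent P Np with hHdef
  have hHn : H.Normal := cent_normal S.nP S.nNp
  have hHNp : H ≤ Np := inf_le_left
  have hQH : Q ≤ H := P_le_cent S.swap
  obtain ⟨m₁, τ, hτ, h1⟩ := hH Np S.nNp
  obtain ⟨m₃, ω, hω, h3⟩ := hH H hHn
  have hχ1 : χ 1 ≠ 0 := irr_one_ne_zero hχ
  have hm₃ : m₃ ≠ 0 := by
    rintro rfl
    have := h3 1
    simp only [Nat.cast_zero, zero_mul] at this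
    exact hχ1 this
  obtain ⟨m₂, hd1, hd2, hsq, hdeg⟩ := tower hχ S.nNp hHn hHNp hτ hω h1 h3
  have hhom : Homog ω := homog_of_restrict hH (normal_map_cent S C) hω hm₃ h3
  let Y : Subgroup H := Q.subgroupOf H
  have hY : Y.Normal := S.nQ.subgroupOf H
  obtain ⟨a, ha⟩ := S.iQ
  have hmul : Q.relIndex H * H.relIndex Np = Q.relIndex Np :=
    Subgroup.relIndex_mul_relIndex _ _ _ hQH hHNp
  have hYidx : ∃ k, Y.index = p ^ k := by
    have h4 : Q.relIndex H ∣ p ^ a := ha ▸ ⟨_, hmul.symm⟩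
    obtain ⟨k, -, hk⟩ := (Nat.dvd_prime_pow S.hp).mp h4
    exact ⟨k, hk⟩
  have hirrY := irr_res_of_homog hω hhom hY hYidx
  have hdegY : charDegree ω = charDegree (fun y : Y => ω y) := rfl
  have hdvd : charDegree ω ∣ Nat.card Y := hdegY ▸ charDegree_dvd_card hirrY
  have hcardY : Nat.card Y = Nat.card Q :=
    Nat.card_congr (Subgroup.subgroupOfEquivOfLe hQH).toEquiv
  obtain ⟨n, hn⟩ := IsPGroup.iff_card.mp S.gQ
  rw [hcardY, hn] at hdvd
  obtain ⟨t₁, -, ht₁⟩ := (Nat.dvd_prime_pow S.hq).mp hdvd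
  obtain ⟨c, hc⟩ := S.iNp
  rw [hc] at hd1
  obtain ⟨t₂, -, ht₂⟩ := (Nat.dvd_prime_pow S.hq).mp hd1
  have hd3 : m₂ ∣ p ^ a := by
    refine dvd_trans hd2 ?_
    rw [← ha, ← hmul]
    exact Dvd.intro_left _ rfl
  obtain ⟨s, -, hs⟩ := (Nat.dvd_prime_pow S.hp).mp hd3
  refine ⟨m₂, m₁ * charDegree ω, by rw [hdeg]; ring, ⟨s, hs⟩, ⟨t₂ + t₁, by rw [ht₁, ht₂, pow_add]⟩, ?_⟩
  refine hsq.trans (Nat.le_of_dvd ?_ (relIndex_cent_dvd S C))
  exact Nat.pos_of_ne_zero Subgroup.index_ne_zero_of_finite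

/-- The structural consequences of faithfulness and homogeneity. -/
theorem core_of_homog {χ : G → ℂ} (hχ : IsIrrCharacter G χ) (hH : Homog χ)
    (hfaith : ∀ x : G, χ x = χ 1 → x = 1) : Core G := by
  have hlin : ∀ N : Subgroup G, N.Normal → (∀ a b : N, a * b = b * a) →
      ∃ (m : ℕ) (lam : N →* ℂˣ), charDegree χ = m ∧ ∀ n : N, χ n = m * (lam n : ℂ) := by
    intro N hN hc
    obtain ⟨m, θ, hθ, hm⟩ := hH N hN
    have h1 : θ 1 = 1 := isIrr_deg_one_of_comm hc hθ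
    obtain ⟨lam, rfl⟩ := exists_hom_of_deg_one (isCharacter_of_isIrrCharacter hθ) h1
    refine ⟨m, lam, ?_, hm⟩
    apply charDegree_eq_of_eq_natCast
    have h2 := hm 1
    simp only [map_one, Units.val_one, mul_one] at h2
    simpa using h2
  constructor
  · intro N hN hab x hx
    have hc : ∀ a b : N, a * b = b * a := fun a b => Subtype.ext (hab a a.2 b b.2)
    obtain ⟨m, lam, hd, hm⟩ := hlin N hN hc
    letI := Fintype.ofFinite G
    apply Cfsg.Agent.Lib.FG85.IP.mem_center_of_norm hχ hfaith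
    rw [hd]
    have h1 := hm ⟨x, hx⟩
    have h2 : χ x = m * (lam ⟨x, hx⟩ : ℂ) := h1
    rw [h2, norm_mul, Cfsg.Agent.Lib.OddChar.Dual.norm_apply, Complex.norm_natCast, mul_one]
  · have hc : ∀ a b : center G, a * b = b * a := fun a b =>
      Subtype.ext (Subgroup.mem_center_iff.mp a.2 b.1).symm
    obtain ⟨m, lam, hd, hm⟩ := hlin (center G) inferInstance hc
    refine ⟨lam, ?_⟩
    rw [injective_iff_map_eq_one]
    intro z hz
    have h1 := hm z
    rw [hz] at h1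
    have h2 := hm 1
    simp only [map_one, Units.val_one, mul_one] at h1 h2
    have h3 : χ (z : G) = χ 1 := by
      rw [h1]
      simpa using h2.symm
    exact Subtype.ext (hfaith _ h3)

/-- The faithful case. -/
theorem exists_class_of_homog {p q : ℕ} {P Q Np Nq : Subgroup G} (S : Setup p q P Q Np Nq)
    {χ : G → ℂ} (hχ : IsIrrCharacter G χ) (hH : Homog χ) (hfaith : ∀ x : G, χ x = χ 1 → x = 1) :
    ∃ g : G, charDegree χ ∣ (centralizer ({g} : Set G)).index := by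
  have C := core_of_homog hχ hH hfaith
  obtain ⟨A, B, h1, hA, hB, hA2⟩ := deg_factor S C hχ hH
  obtain ⟨A', B', h2, hA', hB', hA2'⟩ := deg_factor S.swap C hχ hH
  have hcop : Nat.Coprime p q := (Nat.coprime_primes S.hp S.hq).mpr S.hpq
  obtain ⟨s, rfl⟩ := hA
  obtain ⟨t, rfl⟩ := hB
  obtain ⟨s', rfl⟩ := hA'
  obtain ⟨t', rfl⟩ := hB'
  have h3 : q ^ t = q ^ s' := by
    have h4 : p ^ s * q ^ t = q ^ s' * p ^ t' := h1.symm.trans h2
    have h5 : q ^ t ∣ q ^ s' := by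
      have h6 : q ^ t ∣ q ^ s' * p ^ t' := ⟨p ^ s, by rw [← h4]; ring⟩
      exact (Nat.Coprime.dvd_of_dvd_mul_right (Nat.Coprime.pow _ _ hcop.symm) h6)
    have h7 : q ^ s' ∣ q ^ t := by
      have h6 : q ^ s' ∣ p ^ s * q ^ t := ⟨p ^ t', h4⟩
      exact (Nat.Coprime.dvd_of_dvd_mul_left (Nat.Coprime.pow _ _ hcop.symm) h6)
    exact Nat.dvd_antisymm h5 h7
  obtain ⟨g, hg⟩ := exists_class_index S C (A := p ^ s) (B := q ^ s') ⟨s, rfl⟩ ⟨s', rfl⟩ hA2 hA2'
  refine ⟨g, ?_⟩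
  rw [h1, h3]
  exact hg

end Main

end Cfsg.Agent.Lib.PrimCS.Deg
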