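import Cfsg.Agent.Lib.PrimCS.Deg
import Cfsg.Agent.Lib.Core.Basic

/-!
# Degrees of primitive characters of metanilpotent `{p, q}`-groups divide class sizes
-/

set_option autoImplicit false

namespace Cfsg.Agent.Lib.PrimCS.Main

open Cfsg Subgroup
open Cfsg.Agent.Lib.Char.Basic Cfsg.Agent.Lib.Char.Ortho Cfsg.Agent.Lib.Char.Complete
open Cfsg.Agent.Lib.Char.Conj Cfsg.Agent.Lib.Char.Clifford Cfsg.Agent.Lib.Char.CliffordCorr
open Cfsg.Agent.Lib.Char.Degree Cfsg.Agent.Lib.Char.Linear
open Cfsg.Agent.Lib.Core.Basic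
open Cfsg.Agent.Lib.PrimCS.Struct Cfsg.Agent.Lib.PrimCS.Deg

universe u

section Setup

variable {G : Type u} [Group G] [Finite G]

theorem fitting_eq_sup {p q : ℕ} (hp : p.Prime) (hq : q.Prime)
    (hdiv : ∀ r : ℕ, r.Prime → r ∣ Nat.card G → r = p ∨ r = q) :
    fittingSubgroup G = pCore p G ⊔ pCore q G := by
  apply le_antisymm
  · rw [fittingSubgroup_eq_iSup_pCore]
    refine iSup_le fun r => ?_
    by_cases hr : (r : ℕ) ∣ Nat.card G
    · rcases hdiv r r.2 hr with h | h
      · rw [h]
        exact le_sup_left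
      · rw [h]
        exact le_sup_right
    · haveI : Fact (r : ℕ).Prime := ⟨r.2⟩
      rw [pCore_eq_bot_of_not_dvd hr]
      exact bot_le
  · haveI : Fact p.Prime := ⟨hp⟩
    haveI : Fact q.Prime := ⟨hq⟩
    exact sup_le (pCore_le_fittingSubgroup p) (pCore_le_fittingSubgroup q)

variable [hF : (fittingSubgroup G).Normal]

/-- The preimage of `O_p(G/F(G))`. -/
def upper (p : ℕ) (G : Type u) [Group G] [hF : (fittingSubgroup G).Normal] : Subgroup G :=
  (pCore p (G ⧸ fittingSubgroup G)).comap (QuotientGroup.mk' (fittingSubgroup G))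

theorem upper_normal (p : ℕ) : (upper p G).Normal := by
  unfold upper
  exact (inferInstance : (pCore p (G ⧸ fittingSubgroup G)).Normal).comap _

theorem fitting_le_upper (p : ℕ) : fittingSubgroup G ≤ upper p G := by
  intro x hx
  have h1 : QuotientGroup.mk' (fittingSubgroup G) x = 1 := (QuotientGroup.eq_one_iff x).mpr hx
  show QuotientGroup.mk' (fittingSubgroup G) x ∈ pCore p (G ⧸ fittingSubgroup G)
  rw [h1]
  exact Subgroup.one_mem _

theorem top_of_nilp {p q : ℕ} (hp : p.Prime) (hq : q.Prime)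
    (hdiv : ∀ r : ℕ, r.Prime → r ∣ Nat.card G → r = p ∨ r = q)
    (hmeta : Group.IsNilpotent (G ⧸ fittingSubgroup G)) :
    pCore p (G ⧸ fittingSubgroup G) ⊔ pCore q (G ⧸ fittingSubgroup G) = ⊤ := by
  rw [← fitting_eq_sup hp hq]
  · exact fittingSubgroup_eq_top_iff.mpr hmeta
  · intro r hr hd
    exact hdiv r hr (hd.trans (Subgroup.card_quotient_dvd_card _))

theorem relIndex_upper {p q : ℕ} (hp : p.Prime) (hq : q.Prime)
    (hdiv : ∀ r : ℕ, r.Prime → r ∣ Nat.card G → r = p ∨ r = q) :
    ∃ a, (pCore q G).relIndex (upper p G) = p ^ a := by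
  haveI : Fact p.Prime := ⟨hp⟩
  have hFeq := fitting_eq_sup hp hq hdiv
  have h1 := Subgroup.relIndex_mul_relIndex (pCore q G) (fittingSubgroup G) (upper p G)
    (by rw [hFeq]; exact le_sup_right) (fitting_le_upper p)
  have h2 : (fittingSubgroup G).relIndex (upper p G) = Nat.card (pCore p (G ⧸ fittingSubgroup G)) := by
    have h3 := Subgroup.relIndex_ker (K := upper p G) (QuotientGroup.mk' (fittingSubgroup G))
    rw [QuotientGroup.ker_mk'] at h3
    rw [h3, upper, Subgroup.map_comap_eq_self_of_surjective (QuotientGroup.mk'_surjective _)]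
  have h4 : (pCore q G).relIndex (fittingSubgroup G) = (pCore q G).relIndex (pCore p G) := by
    rw [hFeq, sup_comm]
    exact Subgroup.relIndex_sup_left _ _
  obtain ⟨x, hx⟩ := IsPGroup.iff_card.mp (pCore_isPGroup (p := p) (G := G ⧸ fittingSubgroup G))
  obtain ⟨y, hy⟩ := IsPGroup.iff_card.mp (pCore_isPGroup (p := p) (G := G))
  have h5 : (pCore q G).relIndex (pCore p G) ∣ p ^ y := hy ▸ Subgroup.relIndex_dvd_card _ _
  have h6 : (pCore q G).relIndex (upper p G) ∣ p ^ (y + x) := by
    rw [← h1, h4, h2, hx, pow_add]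
    exact Nat.mul_dvd_mul_right h5 _
  obtain ⟨k, -, hk⟩ := (Nat.dvd_prime_pow hp).mp h6
  exact ⟨k, hk⟩

theorem index_upper {p q : ℕ} (hp : p.Prime) (hq : q.Prime)
    (hdiv : ∀ r : ℕ, r.Prime → r ∣ Nat.card G → r = p ∨ r = q)
    (hmeta : Group.IsNilpotent (G ⧸ fittingSubgroup G)) :
    ∃ c, (upper p G).index = q ^ c := by
  haveI : Fact q.Prime := ⟨hq⟩
  have h1 : (upper p G).index = (pCore p (G ⧸ fittingSubgroup G)).index :=
    Subgroup.index_comap_of_surjective _ (QuotientGroup.mk'_surjective _)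
  have h2 : (pCore p (G ⧸ fittingSubgroup G)).index
      = (pCore p (G ⧸ fittingSubgroup G)).relIndex (pCore q (G ⧸ fittingSubgroup G)) := by
    rw [← Subgroup.relIndex_top_right, ← top_of_nilp hp hq hdiv hmeta]
    exact Subgroup.relIndex_sup_left _ _
  obtain ⟨y, hy⟩ := IsPGroup.iff_card.mp (pCore_isPGroup (p := q) (G := G ⧸ fittingSubgroup G))
  have h3 : (upper p G).index ∣ q ^ y := by
    rw [h1, h2, ← hy]
    exact Subgroup.relIndex_dvd_card _ _
  obtain ⟨k, -, hk⟩ := (Nat.dvd_prime_pow hq).mp h3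
  exact ⟨k, hk⟩

theorem exists_setup {p q : ℕ} (hp : p.Prime) (hq : q.Prime) (hpq : p ≠ q)
    (hdiv : ∀ r : ℕ, r.Prime → r ∣ Nat.card G → r = p ∨ r = q)
    (hmeta : Group.IsNilpotent (G ⧸ fittingSubgroup G)) :
    Setup p q (pCore p G) (pCore q G) (upper p G) (upper q G) := by
  haveI : Fact p.Prime := ⟨hp⟩
  haveI : Fact q.Prime := ⟨hq⟩
  have hdiv' : ∀ r : ℕ, r.Prime → r ∣ Nat.card G → r = q ∨ r = p := fun r hr hd =>
    (hdiv r hr hd).symm
  have hFeq := fitting_eq_sup hp hq hdiv
  refine ⟨hp, hq, hpq, inferInstance, inferInstance, upper_normal p, upper_normal q,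
    pCore_isPGroup, pCore_isPGroup, ?_, ?_, ?_, ?_, relIndex_upper hp hq hdiv,
    relIndex_upper hq hp hdiv', ?_, ?_, index_upper hp hq hdiv hmeta,
    index_upper hq hp hdiv' (by exact hmeta)⟩
  · exact (hFeq ▸ le_sup_left : pCore p G ≤ fittingSubgroup G).trans (fitting_le_upper p)
  · exact (hFeq ▸ le_sup_right : pCore q G ≤ fittingSubgroup G).trans (fitting_le_upper p)
  · exact (hFeq ▸ le_sup_left : pCore p G ≤ fittingSubgroup G).trans (fitting_le_upper q)
  · exact (hFeq ▸ le_sup_right : pCore q G ≤ fittingSubgroup G).trans (fitting_le_upper q)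
  · rw [← hFeq]
    intro x hx
    have h1 : QuotientGroup.mk' (fittingSubgroup G) x ∈ pCore p (G ⧸ fittingSubgroup G) := hx.1
    have h2 : QuotientGroup.mk' (fittingSubgroup G) x ∈ pCore q (G ⧸ fittingSubgroup G) := hx.2
    have h3 := IsPGroup.disjoint_of_ne p q hpq _ _
      (pCore_isPGroup (p := p) (G := G ⧸ fittingSubgroup G))
      (pCore_isPGroup (p := q) (G := G ⧸ fittingSubgroup G))
    have h4 := Subgroup.disjoint_def.mp h3 h1 h2
    exact (QuotientGroup.eq_one_iff x).mp h4
  · unfold upper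
    rw [Subgroup.comap_sup_eq _ _ _ (QuotientGroup.mk'_surjective _),
      top_of_nilp hp hq hdiv hmeta, Subgroup.comap_top]

end Setup

section Reduce

variable {G : Type u} [Group G] [Fintype G]

/-- A primitive character is homogeneous. -/
theorem homog_of_primitive {χ : G → ℂ} (hχ : IsIrrCharacter G χ)
    (hprim : ¬ ∃ (H : Subgroup G), H ≠ ⊤ ∧ ∃ θ : ↥H → ℂ, IsCharacter ↥H θ ∧ indFun H θ = χ) :
    Homog χ := by
  classical
  intro N hN
  letI : Fintype N := Fintype.ofFinite _
  have hχc := isCharacter_of_isIrrCharacter hχ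
  have hres : (fun n : N => χ n) ≠ 0 := by
    intro h
    have h1 := congrFun h 1
    exact irr_one_ne_zero hχ (by simpa using h1)
  obtain ⟨θ, hθ, hcon⟩ := exists_irr_constituent
    (isClassFunction_of_isCharacter (isCharacter_restrict N hχc)) hres
  by_cases hT : inertia hN θ = ⊤
  · obtain ⟨e, he⟩ := Cfsg.Agent.Lib.Char.RelGraph.exists_mult hχ hθ
    have horb : orbitFinset hN θ = {θ} := by
      ext φ
      rw [mem_orbitFinset, Finset.mem_singleton]
      constructor
      · rintro ⟨g, rfl⟩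
        have h1 : g ∈ inertia hN θ := by
          rw [hT]
          trivial
        exact h1
      · rintro rfl
        exact ⟨1, conjOn_one hN φ⟩
    have hc := clifford_restrict hN hχ hθ hcon
    rw [horb, Finset.sum_singleton, he] at hc
    refine ⟨e, θ, hθ, fun n => ?_⟩
    have h2 := congrFun hc n
    simpa using h2
  · exfalso
    apply hprim
    letI : Fintype (inertia hN θ) := Fintype.ofFinite _
    have hNT : N ≤ inertia hN θ := le_inertia hN (isClassFunction_of_isIrrCharacter hθ)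
    obtain ⟨ψ, hψ, hind, -⟩ := exists_irr_inertia_of_lies_over hN hNT hθ rfl hχ hcon
    exact ⟨_, hT, ψ, isCharacter_of_isIrrCharacter hψ, hind⟩

/-- Reduction to a faithful character. -/
theorem exists_class_general {p q : ℕ} (hp : p.Prime) (hq : q.Prime) (hpq : p ≠ q)
    (hdiv : ∀ r : ℕ, r.Prime → r ∣ Nat.card G → r = p ∨ r = q)
    [hF : (fittingSubgroup G).Normal] (hmeta : Group.IsNilpotent (G ⧸ fittingSubgroup G))
    {χ : G → ℂ} (hχ : IsIrrCharacter G χ) (hH : Homog χ) :
    ∃ g : G, charDegree χ ∣ (centralizer ({g} : Set G)).index := by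
  classical
  have hχc := isCharacter_of_isIrrCharacter hχ
  let K : Subgroup G := charKer hχc
  haveI hKn : K.Normal := charKer_normal hχc
  let π : G →* G ⧸ K := QuotientGroup.mk' K
  have hπ : Function.Surjective π := QuotientGroup.mk'_surjective K
  obtain ⟨φ, hφ, hχφ⟩ := isIrrCharacter_descend π hπ hχ (fun k hk => by
    rw [QuotientGroup.ker_mk'] at hk
    exact hk)
  have hval : ∀ g, χ g = φ (π g) := fun g => congrFun hχφ g
  have hone : χ 1 = φ 1 := by
    rw [hval, map_one]
  have hfaith : ∀ x : G ⧸ K, φ x = φ 1 → x = 1 := by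
    intro x hx
    obtain ⟨g, rfl⟩ := hπ x
    have h1 : χ g = χ 1 := by
      rw [hval, hone]
      exact hx
    exact (QuotientGroup.eq_one_iff g).mpr h1
  have hHφ : Homog φ := by
    intro U' hU'
    let U : Subgroup G := U'.comap π
    obtain ⟨m, θ, hθ, hm⟩ := hH U (hU'.comap π)
    let πU : U →* U' := π.subgroupComap U'
    have hπU : Function.Surjective πU := π.subgroupComap_surjective_of_surjective U' hπ
    have hm0 : (m : ℂ) ≠ 0 := by
      intro h
      have h1 := hm 1
      rw [h, zero_mul] at h1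
      exact irr_one_ne_zero hχ (by simpa using h1)
    obtain ⟨θ', hθ', hθθ'⟩ := isIrrCharacter_descend πU hπU hθ (fun k hk => by
      have h1 : π (k : G) = 1 := congrArg Subtype.val (MonoidHom.mem_ker.mp hk)
      have h2 : (k : G) ∈ K := (QuotientGroup.eq_one_iff (k : G)).mp h1
      have h3 : χ k = χ 1 := h2
      apply mul_left_cancel₀ hm0
      rw [← hm k, h3]
      have h4 := hm 1
      simpa using h4)
    refine ⟨m, θ', hθ', fun n' => ?_⟩
    obtain ⟨n, rfl⟩ := hπU n'
    have h5 : θ n = θ' (πU n) := congrFun hθθ' n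
    rw [← h5, ← hm n, hval]
    rfl
  have hdeg : charDegree χ = charDegree φ := by
    apply charDegree_eq_of_eq_natCast
    rw [hone, charDegree_natCast (isCharacter_of_isIrrCharacter hφ)]
  have hdiv' : ∀ r : ℕ, r.Prime → r ∣ Nat.card (G ⧸ K) → r = p ∨ r = q := fun r hr hd =>
    hdiv r hr (hd.trans (Subgroup.card_quotient_dvd_card _))
  haveI hF' : (fittingSubgroup (G ⧸ K)).Normal := fittingSubgroup_normal'
  have hmeta' : Group.IsNilpotent ((G ⧸ K) ⧸ fittingSubgroup (G ⧸ K)) := by
    let f : G →* (G ⧸ K) ⧸ fittingSubgroup (G ⧸ K) :=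
      (QuotientGroup.mk' (fittingSubgroup (G ⧸ K))).comp π
    have hf : Function.Surjective f :=
      (QuotientGroup.mk'_surjective _).comp hπ
    have hle : ∀ x ∈ fittingSubgroup G, f x = 1 := by
      intro x hx
      have h1 : π x ∈ fittingSubgroup (G ⧸ K) :=
        map_fittingSubgroup_le_of_surjective π hπ (Subgroup.mem_map_of_mem _ hx)
      exact (QuotientGroup.eq_one_iff (π x)).mpr h1
    let f' : G ⧸ fittingSubgroup G →* (G ⧸ K) ⧸ fittingSubgroup (G ⧸ K) :=
      QuotientGroup.lift _ f hle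
    have hf' : Function.Surjective f' := by
      intro y
      obtain ⟨x, rfl⟩ := hf y
      exact ⟨(x : G ⧸ fittingSubgroup G), rfl⟩
    exact Group.nilpotent_of_surjective f' hf'
  have S := exists_setup hp hq hpq hdiv' hmeta'
  obtain ⟨g', hg'⟩ := exists_class_of_homog S hφ hHφ hfaith
  obtain ⟨g, rfl⟩ := hπ g'
  refine ⟨g, ?_⟩
  rw [hdeg]
  refine hg'.trans ?_
  have h3 : centralizer ({g} : Set G) ≤ (centralizer ({π g} : Set (G ⧸ K))).comap π := by
    intro x hx
    rw [Subgroup.mem_centralizer_singleton_iff] at hx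
    rw [Subgroup.mem_comap, Subgroup.mem_centralizer_singleton_iff, ← map_mul, ← map_mul, hx]
  rw [← Subgroup.index_comap_of_surjective _ hπ]
  exact Subgroup.index_dvd_of_le h3

end Reduce

end Cfsg.Agent.Lib.PrimCS.Main
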